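import Cfsg.Agent.H777.M5.Amb
import Cfsg.Agent.H759.FusNormal

/-!
# Strongly closed subgroups of the pruned system on a Sylow 5-subgroup of the Monster (task P4 of S5230)
-/

set_option autoImplicit false
set_option linter.unusedSectionVars false

namespace Cfsg.Agent.H96.M5X

open Cfsg Cfsg.FusionSystem Cfsg.Agent.H802 Cfsg.Agent.H777.Prune Cfsg.Agent.H411.M5 Cfsg.Agent.H777.M5 Matrix

variable {G : Type} [Group G] [Finite G] (M : MX G)

theorem w_zero : M.w 0 = 1 := by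
  have := M.w_mul 0 0
  rw [om_self, mul_zero, ZMod.val_zero, pow_zero, mul_one, add_zero] at this
  exact mul_eq_left.1 this

theorem f_w (v : V6) : M.f ⟨v, 0, 0, 0⟩ = M.w v := by
  rw [M.f_apply]
  simp

theorem f_x (c : ZMod 5) : M.f ⟨0, c, 0, 0⟩ = M.x ^ c.val := by
  rw [M.f_apply]
  simp [w_zero]

theorem val_one5 : (1 : ZMod 5).val = 1 := rfl

theorem w_mem (v : V6) : M.w v ∈ M.S := ⟨⟨v, 0, 0, 0⟩, f_w M v⟩

theorem x_mem : M.x ∈ M.S := ⟨⟨0, 1, 0, 0⟩, by rw [f_x, val_one5, pow_one]⟩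

theorem a_mem : M.a ∈ M.S := ⟨⟨0, 0, 1, 0⟩, by rw [M.f_apply]; simp [w_zero, val_one5]⟩

theorem b_mem : M.b ∈ M.S := ⟨⟨0, 0, 0, 1⟩, by rw [M.f_apply]; simp [w_zero, val_one5]⟩

theorem w_comm {u v : V6} (h : M.w u * M.w v = M.w v * M.w u) : om u v = 0 := by
  have h1 := PDat.w_conj M.toPData u v
  rw [h] at h1
  exact PDat.x_pow_eq_one M.toPData (left_eq_mul.1 h1)

theorem w_inj {u v : V6} (h : M.w u = M.w v) : u = v := by
  rw [← f_w, ← f_w] at h
  exact congrArg PG.v (M.f_injective h)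

theorem w_inv (v : V6) : (M.w v)⁻¹ = M.w (-v) := by
  have h := M.w_mul v (-v)
  rw [om_neg_right, om_self, neg_zero, mul_zero, ZMod.val_zero, pow_zero, mul_one, add_neg_cancel, w_zero] at h
  exact inv_eq_of_mul_eq_one_right h

theorem x_comm_S {s : G} (hs : s ∈ M.S) : M.x * s = s * M.x := by
  obtain ⟨p, rfl⟩ := hs
  have hx : M.x = M.f ⟨0, 1, 0, 0⟩ := by rw [f_x, val_one5, pow_one]
  rw [hx, ← map_mul, ← map_mul]
  congr 1
  exact ((Subgroup.mem_center_iff.1 (mem_center.2 ⟨rfl, rfl, rfl⟩ : (⟨0, 1, 0, 0⟩ : PG) ∈ Subgroup.center PG)) p).symm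

/-- conjugation maps on nonabelian subgroups belong to the pruned system -/
theorem conj_mem_E {P : Subgroup G} {g x y : G} (hP : P ≤ M.S) (hx : x ∈ P) (hy : y ∈ P)
    (h : x * y ≠ y * x) (hg : ∀ x ∈ P, g * x * g⁻¹ ∈ M.S) : conjHom P g ∈ M.E.Hom P :=
  mem_prune (M.not_below_of_nab hx hy h) ⟨hP, fun x => hg x x.2, g, fun x => rfl⟩

theorem closure_le_S {e p₁ p₂ : G} (he : e ∈ M.S) (h1 : p₁ ∈ M.S) (h2 : p₂ ∈ M.S) :
    Subgroup.closure ({e, p₁, p₂} : Set G) ≤ M.S := by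
  rw [Subgroup.closure_le]
  rintro x (rfl | rfl | rfl)
  · exact he
  · exact h1
  · exact h2

theorem closure_conj {m e p₁ p₂ : G} (he : m * e * m⁻¹ ∈ M.S) (h1 : m * p₁ * m⁻¹ ∈ M.S) (h2 : m * p₂ * m⁻¹ ∈ M.S) :
    ∀ x ∈ Subgroup.closure ({e, p₁, p₂} : Set G), m * x * m⁻¹ ∈ M.S := by
  have h : Subgroup.closure ({e, p₁, p₂} : Set G) ≤ M.S.comap (MulAut.conj m).toMonoidHom := by
    rw [Subgroup.closure_le]
    rintro x (rfl | rfl | rfl)
    · exact he
    · exact h1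
    · exact h2
  exact fun x hx => h hx

/-- the map on `⟨e, p₁, p₂⟩` -/
theorem map_mem {m e p₁ p₂ : G} (he : e ∈ M.S) (h1 : p₁ ∈ M.S) (h2 : p₂ ∈ M.S) (hne : p₁ * p₂ ≠ p₂ * p₁)
    (hem : m * e * m⁻¹ ∈ M.S) (h1m : m * p₁ * m⁻¹ ∈ M.S) (h2m : m * p₂ * m⁻¹ ∈ M.S) :
    conjHom (Subgroup.closure ({e, p₁, p₂} : Set G)) m ∈ M.E.Hom (Subgroup.closure ({e, p₁, p₂} : Set G)) :=
  conj_mem_E M (closure_le_S M he h1 h2) (Subgroup.subset_closure (by simp)) (Subgroup.subset_closure (by simp)) hne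
    (closure_conj M hem h1m h2m)

theorem move {A : Subgroup G} (hA : M.E.StronglyClosed A) {m e p₁ p₂ : G} (he : e ∈ A) (h1 : p₁ ∈ M.S) (h2 : p₂ ∈ M.S)
    (hne : p₁ * p₂ ≠ p₂ * p₁) (hem : m * e * m⁻¹ ∈ M.S) (h1m : m * p₁ * m⁻¹ ∈ M.S) (h2m : m * p₂ * m⁻¹ ∈ M.S) :
    m * e * m⁻¹ ∈ A := by
  have hmem := map_mem M (hA.1 he) h1 h2 hne hem h1m h2m
  have hz : Subgroup.zpowers e ≤ Subgroup.closure ({e, p₁, p₂} : Set G) := by
    rw [Subgroup.zpowers_le]
    exact Subgroup.subset_closure (by simp)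
  have hr := restrict_mem hmem hz
  exact hA.2 (Subgroup.zpowers e) (by rw [Subgroup.zpowers_le]; exact he) _ hr ⟨e, Subgroup.mem_zpowers e⟩

/-! ### the elements `a` and `x` -/

theorem orderOf_x : orderOf M.x = 5 := orderOf_eq_prime M.x_five M.x_ne

theorem a_ne : M.a ≠ 1 := by
  intro h
  have h1 := M.a_w (Pi.single 3 1)
  rw [h, one_mul, inv_one, mul_one] at h1
  exact absurd (w_inj M h1) (by decide +kernel)

/-- an element commuting with `x ^ n` commutes with `x` -/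
theorem comm_x {n : ℕ} (hn : M.x ^ n ≠ 1) {g : G} (h : g * M.x ^ n = M.x ^ n * g) : g * M.x = M.x * g := by
  have h5 : ¬ 5 ∣ n := by
    rintro ⟨k, rfl⟩
    exact hn (by rw [pow_mul, M.x_five, one_pow])
  have hc : Nat.Coprime n (orderOf M.x) := by
    rw [orderOf_x]
    exact ((Nat.Prime.coprime_iff_not_dvd Nat.prime_five).2 h5).symm
  obtain ⟨m, hm⟩ := exists_pow_eq_self_of_coprime hc
  have h1 : Commute g (M.x ^ n) := h
  have h2 := h1.pow_right m
  rw [hm] at h2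
  exact h2

theorem b_w1 : M.b * M.w (Pi.single 1 1) ≠ M.w (Pi.single 1 1) * M.b := by
  intro h
  have h1 := M.b_w (Pi.single 1 1)
  rw [h, mul_inv_cancel_right] at h1
  exact absurd (w_inj M h1) (by decide +kernel)

theorem a_w1 : M.a * M.w (Pi.single 1 1) = M.w (Pi.single 1 1) * M.a := by
  have h1 := M.a_w (Pi.single 1 1)
  rw [show aM *ᵥ (Pi.single 1 1) = (Pi.single 1 1 : V6) by decide +kernel] at h1
  exact mul_inv_eq_iff_eq_mul.1 h1

/-- an element `m` taking `a` to a power of `x`, `b` and `w(e₁)` into `S` -/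
theorem exists_m : ∃ (m : G) (n : ℕ), M.x ^ n ≠ 1 ∧ m * M.a * m⁻¹ = M.x ^ n ∧ m * M.b * m⁻¹ ∈ M.S ∧
    m * M.w (Pi.single 1 1) * m⁻¹ ∈ M.S := by
  obtain ⟨g, n, hg⟩ := M.a_conj
  have hn : M.x ^ n ≠ 1 := by
    rw [← hg]
    intro h
    apply a_ne M
    have h1 : g * M.a = g := mul_inv_eq_one.1 h
    exact mul_eq_left.1 h1
  set C := Subgroup.centralizer ({M.x} : Set G) with hC
  have hSC : (M.T : Subgroup G) ≤ C := by
    intro s hs
    exact Subgroup.mem_centralizer_singleton_iff.2 (x_comm_S M hs).symm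
  set K := M.S ⊓ Subgroup.centralizer ({M.a} : Set G) with hK
  have hKp : IsPGroup 5 K := M.S_isPGroup.to_le inf_le_left
  set K' := K.map (MulAut.conj g).toMonoidHom with hK'
  have hK'p : IsPGroup 5 K' := hKp.map _
  have hK'C : K' ≤ C := by
    rintro _ ⟨k, hk, rfl⟩
    apply Subgroup.mem_centralizer_singleton_iff.2
    apply comm_x M hn
    have h1 := Subgroup.mem_centralizer_singleton_iff.1 hk.2
    show g * k * g⁻¹ * M.x ^ n = M.x ^ n * (g * k * g⁻¹)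
    rw [← hg]
    calc g * k * g⁻¹ * (g * M.a * g⁻¹) = g * (k * M.a) * g⁻¹ := by group
      _ = g * (M.a * k) * g⁻¹ := by rw [h1]
      _ = g * M.a * g⁻¹ * (g * k * g⁻¹) := by group
  have hK'' : IsPGroup 5 (K'.subgroupOf C) :=
    hK'p.of_injective (Subgroup.subgroupOfEquivOfLe hK'C).toMonoidHom (Subgroup.subgroupOfEquivOfLe hK'C).injective
  obtain ⟨Q, hQ⟩ := hK''.exists_le_sylow
  obtain ⟨h, hh⟩ := MulAction.exists_smul_eq C Q (M.T.subtype hSC)
  have key : ∀ k ∈ K, (h : G) * g * k * ((h : G) * g)⁻¹ ∈ M.S := by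
    intro k hk
    have h1 : g * k * g⁻¹ ∈ K' := ⟨k, hk, rfl⟩
    have h2 : (⟨g * k * g⁻¹, hK'C h1⟩ : C) ∈ (Q : Subgroup C) := hQ h1
    have h3 : h * ⟨g * k * g⁻¹, hK'C h1⟩ * h⁻¹ ∈ ((h • Q : Sylow 5 C) : Subgroup C) := by
      rw [Sylow.coe_subgroup_smul]
      exact Subgroup.smul_mem_pointwise_smul _ _ _ h2
    rw [hh] at h3
    have h4 : (h : G) * (g * k * g⁻¹) * (h : G)⁻¹ ∈ M.S := h3
    have e : (h : G) * g * k * ((h : G) * g)⁻¹ = (h : G) * (g * k * g⁻¹) * (h : G)⁻¹ := by group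
    rw [e]
    exact h4
  refine ⟨h * g, n, hn, ?_, key _ ⟨b_mem M, ?_⟩, key _ ⟨w_mem M _, ?_⟩⟩
  · have e : (h : G) * g * M.a * ((h : G) * g)⁻¹ = (h : G) * (g * M.a * g⁻¹) * (h : G)⁻¹ := by group
    have h5 : Commute (h : G) M.x := Subgroup.mem_centralizer_singleton_iff.1 h.2
    rw [e, hg, (h5.pow_right n).eq, mul_inv_cancel_right]
  · exact Subgroup.mem_centralizer_singleton_iff.2 M.a_b.symm
  · exact Subgroup.mem_centralizer_singleton_iff.2 (a_w1 M).symm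

/-! ### the element `r` -/

theorem comp_w {g h : G} {A B : Matrix (Fin 6) (Fin 6) (ZMod 5)} (hg : ∀ v, g * M.w v * g⁻¹ = M.w (A *ᵥ v))
    (hh : ∀ v, h * M.w v * h⁻¹ = M.w (B *ᵥ v)) : ∀ v, (g * h) * M.w v * (g * h)⁻¹ = M.w ((A * B) *ᵥ v) := by
  intro v
  have e : (g * h) * M.w v * (g * h)⁻¹ = g * (h * M.w v * h⁻¹) * g⁻¹ := by group
  rw [e, hh, hg, mulVec_mulVec]

theorem pow_w {g : G} {A : Matrix (Fin 6) (Fin 6) (ZMod 5)} (hg : ∀ v, g * M.w v * g⁻¹ = M.w (A *ᵥ v)) (n : ℕ) :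
    ∀ v, g ^ n * M.w v * (g ^ n)⁻¹ = M.w ((A ^ n) *ᵥ v) := by
  induction n with
  | zero => intro v; simp
  | succ n ih =>
    rw [pow_succ, pow_succ]
    exact comp_w M ih hg

/-- two elements of `C(x) ∩ C(z)` acting in the same way on `W` -/
theorem eq_mul_x {g h : G} (hgx : Commute g M.x) (hgz : Commute g M.z) (hhx : Commute h M.x) (hhz : Commute h M.z)
    {A : Matrix (Fin 6) (Fin 6) (ZMod 5)} (hg : ∀ v, g * M.w v * g⁻¹ = M.w (A *ᵥ v))
    (hh : ∀ v, h * M.w v * h⁻¹ = M.w (A *ᵥ v)) : ∃ k ∈ Subgroup.zpowers M.x, g = h * k := by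
  refine ⟨h⁻¹ * g, M.ker _ ?_ ?_ ?_, by group⟩
  · exact (hhx.inv_left.mul_left hgx).eq
  · exact (hhz.inv_left.mul_left hgz).eq
  · intro v
    have e : h⁻¹ * g * M.w v * (h⁻¹ * g)⁻¹ = h⁻¹ * (g * M.w v * g⁻¹) * h := by group
    rw [e, hg, ← hh]
    group

/-- the element `r` -/
def rr : G := M.j * M.b' * M.a * M.b' * M.b * M.a * M.b' * M.b * M.a * M.b'

theorem rr_w : ∀ v, rr M * M.w v * (rr M)⁻¹ = M.w (rM *ᵥ v) :=
  comp_w M (comp_w M (comp_w M (comp_w M (comp_w M (comp_w M (comp_w M (comp_w M (comp_w M M.j_w M.b'_w) M.a_w) M.b'_w)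
    M.b_w) M.a_w) M.b'_w) M.b_w) M.a_w) M.b'_w

theorem rr_x : Commute (rr M) M.x := by
  have hj : Commute M.j M.x := M.jx
  have hb' : Commute M.b' M.x := M.b'x
  have ha : Commute M.a M.x := M.x_a.symm
  have hb : Commute M.b M.x := M.x_b.symm
  exact (((((((((hj.mul_left hb').mul_left ha).mul_left hb').mul_left hb).mul_left ha).mul_left hb').mul_left
    hb).mul_left ha).mul_left hb')

theorem rr_z : Commute (rr M) M.z := by
  have hj : Commute M.j M.z := M.zj.symm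
  have hb' : Commute M.b' M.z := M.zb'.symm
  have ha : Commute M.a M.z := M.za.symm
  have hb : Commute M.b M.z := M.zb.symm
  exact (((((((((hj.mul_left hb').mul_left ha).mul_left hb').mul_left hb).mul_left ha).mul_left hb').mul_left
    hb).mul_left ha).mul_left hb')

theorem rr_a : ∃ k ∈ Subgroup.zpowers M.x, rr M * M.a * (rr M)⁻¹ = M.a ^ 3 * M.b ^ 3 * k := by
  have ha : Commute M.a M.x := M.x_a.symm
  have hb : Commute M.b M.x := M.x_b.symm
  have ha' : Commute M.a M.z := M.za.symm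
  have hb' : Commute M.b M.z := M.zb.symm
  obtain ⟨k, hk, he⟩ := eq_mul_x M (g := rr M * M.a) (h := M.a ^ 3 * M.b ^ 3 * rr M) ((rr_x M).mul_left ha)
    ((rr_z M).mul_left ha') (((ha.pow_left 3).mul_left (hb.pow_left 3)).mul_left (rr_x M))
    (((ha'.pow_left 3).mul_left (hb'.pow_left 3)).mul_left (rr_z M)) (comp_w M (rr_w M) M.a_w)
    (by
      rw [rM_aM]
      exact comp_w M (comp_w M (pow_w M M.a_w 3) (pow_w M M.b_w 3)) (rr_w M))
  refine ⟨k, hk, ?_⟩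
  obtain ⟨n, rfl⟩ := Subgroup.mem_zpowers_iff.1 hk
  have h1 := ((rr_x M).zpow_right n).eq
  rw [he, mul_assoc (M.a ^ 3 * M.b ^ 3), h1, ← mul_assoc, mul_inv_cancel_right]

theorem rr_b : ∃ k ∈ Subgroup.zpowers M.x, rr M * M.b * (rr M)⁻¹ = M.a * M.b ^ 3 * k := by
  have ha : Commute M.a M.x := M.x_a.symm
  have hb : Commute M.b M.x := M.x_b.symm
  have ha' : Commute M.a M.z := M.za.symm
  have hb' : Commute M.b M.z := M.zb.symm
  obtain ⟨k, hk, he⟩ := eq_mul_x M (g := rr M * M.b) (h := M.a * M.b ^ 3 * rr M) ((rr_x M).mul_left hb)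
    ((rr_z M).mul_left hb') ((ha.mul_left (hb.pow_left 3)).mul_left (rr_x M))
    ((ha'.mul_left (hb'.pow_left 3)).mul_left (rr_z M)) (comp_w M (rr_w M) M.b_w)
    (by
      rw [rM_bM]
      exact comp_w M (comp_w M M.a_w (pow_w M M.b_w 3)) (rr_w M))
  refine ⟨k, hk, ?_⟩
  obtain ⟨n, rfl⟩ := Subgroup.mem_zpowers_iff.1 hk
  have h1 := ((rr_x M).zpow_right n).eq
  rw [he, mul_assoc (M.a * M.b ^ 3), h1, ← mul_assoc, mul_inv_cancel_right]

/-! ### strongly closed subgroups -/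

theorem w05 : M.w (Pi.single 0 1) * M.w (Pi.single 5 1) ≠ M.w (Pi.single 5 1) * M.w (Pi.single 0 1) := by
  intro h
  exact absurd (w_comm M h) (by decide +kernel)

/-- **Strongly closed subgroups.** -/
theorem stronglyClosed_E {A : Subgroup G} (hA : M.E.StronglyClosed A) : A = ⊥ ∨ A = M.S := by
  by_cases hA1 : A = ⊥
  · exact Or.inl hA1
  right
  have hAS : A ≤ M.S := hA.1
  have hconj : ∀ s ∈ M.S, ∀ a ∈ A, s * a * s⁻¹ ∈ A := by
    intro s hs a ha
    have h1 : conjHom A s ∈ M.E.Hom A := M.E.conj_mem hAS hs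
    exact hA.2 A le_rfl _ h1 ⟨a, ha⟩
  -- `x ∈ A`
  have hx : M.x ∈ A := by
    have hn : (A.subgroupOf M.S).Normal := ⟨fun a ha s => hconj _ s.2 _ ha⟩
    have hne : A.subgroupOf M.S ≠ ⊥ := by
      intro h
      apply hA1
      rw [Subgroup.subgroupOf_eq_bot] at h
      rw [eq_bot_iff]
      intro x hx
      exact h.le_bot ⟨hx, hAS hx⟩
    obtain ⟨b, hb, hb1, hbc⟩ := Cfsg.Agent.H777.PGrp.inf_center_ne_bot M.S_isPGroup hne hn
    obtain ⟨p, hp⟩ := b.2
    have hpc : p ∈ Subgroup.center PG := by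
      rw [Subgroup.mem_center_iff]
      intro q
      apply M.f_injective
      rw [map_mul, map_mul, hp]
      exact congrArg Subtype.val (hbc ⟨M.f q, M.mem_S⟩)
    obtain ⟨h1, h2, h3⟩ := mem_center.1 hpc
    have hb2 : (b : G) = M.x ^ p.c.val := by
      rw [← hp, ← f_x]
      congr 1
      exact PG.ext h1 rfl h2 h3
    have hbA : M.x ^ p.c.val ∈ A := hb2 ▸ hb
    have h4 : M.x ^ p.c.val ≠ 1 := fun h => hb1 (Subtype.ext (hb2.trans h))
    have h5 : ¬ 5 ∣ p.c.val := by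
      rintro ⟨k, hk⟩
      exact h4 (by rw [hk, pow_mul, M.x_five, one_pow])
    have hc : Nat.Coprime p.c.val (orderOf M.x) := by
      rw [orderOf_x]
      exact ((Nat.Prime.coprime_iff_not_dvd Nat.prime_five).2 h5).symm
    obtain ⟨m, hm⟩ := exists_pow_eq_self_of_coprime hc
    rw [← hm]
    exact A.pow_mem hbA m
  -- `a ∈ A`
  have ha : M.a ∈ A := by
    obtain ⟨m, n, hn, hma, hmb, hmw⟩ := exists_m M
    have h1 := move M hA (m := m⁻¹) (e := M.x ^ n) (p₁ := m * M.b * m⁻¹) (p₂ := m * M.w (Pi.single 1 1) * m⁻¹)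
      (A.pow_mem hx n) hmb hmw ?_ ?_ ?_ ?_
    · have e : m⁻¹ * M.x ^ n * m⁻¹⁻¹ = M.a := by rw [← hma]; group
      rwa [e] at h1
    · intro h
      apply b_w1 M
      have e1 : m * M.b * m⁻¹ * (m * M.w (Pi.single 1 1) * m⁻¹) = m * (M.b * M.w (Pi.single 1 1)) * m⁻¹ := by group
      have e2 : m * M.w (Pi.single 1 1) * m⁻¹ * (m * M.b * m⁻¹) = m * (M.w (Pi.single 1 1) * M.b) * m⁻¹ := by group
      rw [e1, e2] at h
      exact mul_left_cancel (mul_right_cancel h)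
    · have e : m⁻¹ * M.x ^ n * m⁻¹⁻¹ = M.a := by rw [← hma]; group
      rw [e]
      exact a_mem M
    · have e : m⁻¹ * (m * M.b * m⁻¹) * m⁻¹⁻¹ = M.b := by group
      rw [e]
      exact b_mem M
    · have e : m⁻¹ * (m * M.w (Pi.single 1 1) * m⁻¹) * m⁻¹⁻¹ = M.w (Pi.single 1 1) := by group
      rw [e]
      exact w_mem M _
  -- `W ≤ A`
  let D : AddSubgroup V6 :=
    { carrier := {v | M.w v ∈ A}
      zero_mem' := by
        show M.w 0 ∈ A
        rw [w_zero]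
        exact A.one_mem
      add_mem' := by
        intro u v (hu : M.w u ∈ A) (hv : M.w v ∈ A)
        show M.w (u + v) ∈ A
        have h1 := A.mul_mem hu hv
        rw [M.w_mul] at h1
        exact (A.mul_mem_cancel_right (A.pow_mem hx _)).1 h1
      neg_mem' := by
        intro v (hv : M.w v ∈ A)
        show M.w (-v) ∈ A
        rw [← w_inv]
        exact A.inv_mem hv }
  have hD : ∀ v, v ∈ D ↔ M.w v ∈ A := fun v => Iff.rfl
  have hDa : ∀ u, u - aM *ᵥ u ∈ D := by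
    intro u
    rw [hD]
    have h1 := A.mul_mem (hconj _ (w_mem M u) _ ha) (A.inv_mem ha)
    have e : M.w u * M.a * (M.w u)⁻¹ * M.a⁻¹ = M.w u * (M.a * M.w u * M.a⁻¹)⁻¹ := by group
    rw [e, M.a_w, w_inv, M.w_mul] at h1
    rw [sub_eq_add_neg]
    exact (A.mul_mem_cancel_right (A.pow_mem hx _)).1 h1
  have d0 : Pi.single 0 1 ∈ D := by
    have h := hDa (Pi.single 3 1)
    rwa [show (Pi.single 3 1 : V6) - aM *ᵥ Pi.single 3 1 = Pi.single 0 1 by decide +kernel] at h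
  have d1 : Pi.single 1 1 ∈ D := by
    have h := hDa (Pi.single 4 1)
    rwa [show (Pi.single 4 1 : V6) - aM *ᵥ Pi.single 4 1 = Pi.single 1 1 by decide +kernel] at h
  have d3 : Pi.single 3 1 ∈ D := by
    have h := hDa (Pi.single 2 1)
    have h1 := D.sub_mem (D.nsmul_mem h 2) (D.nsmul_mem d0 2)
    rwa [show (2 • ((Pi.single 2 1 : V6) - aM *ᵥ Pi.single 2 1) - 2 • Pi.single 0 1 : V6) = Pi.single 3 1 by
      decide +kernel] at h1
  have d2 : Pi.single 2 1 ∈ D := by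
    have h := hDa (Pi.single 5 1)
    have h1 := D.sub_mem (D.sub_mem h (D.nsmul_mem d0 3)) d3
    rwa [show ((Pi.single 5 1 : V6) - aM *ᵥ Pi.single 5 1 - 3 • Pi.single 0 1 - Pi.single 3 1 : V6) = Pi.single 2 1 by
      decide +kernel] at h1
  have hDj : ∀ v ∈ D, jM *ᵥ v ∈ D := by
    intro v hv
    have h1 := move M hA (m := M.j) (e := M.w v) (p₁ := M.w (Pi.single 0 1)) (p₂ := M.w (Pi.single 5 1)) hv
      (w_mem M _) (w_mem M _) (w05 M) (by rw [M.j_w]; exact w_mem M _) (by rw [M.j_w]; exact w_mem M _)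
      (by rw [M.j_w]; exact w_mem M _)
    rwa [M.j_w] at h1
  have d4 : Pi.single 4 1 ∈ D := by
    have h := hDj _ d1
    rwa [show jM *ᵥ (Pi.single 1 1 : V6) = Pi.single 4 1 by decide +kernel] at h
  have d5 : Pi.single 5 1 ∈ D := by
    have h := hDj _ d2
    rwa [show jM *ᵥ (Pi.single 2 1 : V6) = Pi.single 5 1 by decide +kernel] at h
  have hW : ∀ v, M.w v ∈ A := by
    intro v
    rw [← hD]
    have e : v = (v 0).val • (Pi.single 0 1 : V6) + (v 1).val • (Pi.single 1 1 : V6) + (v 2).val • (Pi.single 2 1 : V6)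
        + (v 3).val • (Pi.single 3 1 : V6) + (v 4).val • (Pi.single 4 1 : V6) + (v 5).val • (Pi.single 5 1 : V6) := by
      have key : ∀ c : ZMod 5, c.val • (1 : ZMod 5) = c := by decide
      funext k
      fin_cases k <;> simp [-nsmul_eq_mul, -ZMod.natCast_val, key]
    rw [e]
    exact D.add_mem (D.add_mem (D.add_mem (D.add_mem (D.add_mem (D.nsmul_mem d0 _) (D.nsmul_mem d1 _)) (D.nsmul_mem d2 _))
      (D.nsmul_mem d3 _)) (D.nsmul_mem d4 _)) (D.nsmul_mem d5 _)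
  -- `b ∈ A`
  have hb : M.b ∈ A := by
    obtain ⟨k, hk, he⟩ := rr_a M
    have hkA : k ∈ A := by
      obtain ⟨n, rfl⟩ := Subgroup.mem_zpowers_iff.1 hk
      exact A.zpow_mem hx n
    have h1 := move M hA (m := rr M) (e := M.a) (p₁ := M.w (Pi.single 0 1)) (p₂ := M.w (Pi.single 5 1)) ha
      (w_mem M _) (w_mem M _) (w05 M) (by
        rw [he]
        exact M.S.mul_mem (M.S.mul_mem (M.S.pow_mem (a_mem M) 3) (M.S.pow_mem (b_mem M) 3)) (hAS hkA))
      (by rw [rr_w]; exact w_mem M _) (by rw [rr_w]; exact w_mem M _)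
    rw [he] at h1
    have h2 := (A.mul_mem_cancel_right hkA).1 h1
    have h3 := (A.mul_mem_cancel_left (A.pow_mem ha 3)).1 h2
    have h4 := A.pow_mem h3 2
    have e : (M.b ^ 3) ^ 2 = M.b := by
      rw [← pow_mul, show 3 * 2 = 5 + 1 by norm_num, pow_add, M.b_five, one_mul, pow_one]
    rwa [e] at h4
  refine le_antisymm hAS ?_
  rintro _ ⟨p, rfl⟩
  rw [M.f_apply]
  exact A.mul_mem (A.mul_mem (hW _) (A.pow_mem hx _)) (A.mul_mem (A.pow_mem ha _) (A.pow_mem hb _))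

/-- the whole of `S` is not normal -/
theorem not_isNormal : ¬ M.E.IsNormal M.S := by
  rintro ⟨-, h⟩
  obtain ⟨m, n, hn, hma, hmb, hmw⟩ := exists_m M
  have hmem := map_mem M (m := m) (a_mem M) (b_mem M) (w_mem M (Pi.single 1 1)) (b_w1 M)
    (by rw [hma]; exact M.S.pow_mem (x_mem M) n) hmb hmw
  set P := Subgroup.closure ({M.a, M.b, M.w (Pi.single 1 1)} : Set G) with hP
  have haP : M.a ∈ P := Subgroup.subset_closure (by simp)
  obtain ⟨ψ, hψ, h2, h3⟩ := h P _ hmem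
  have hψF := prune_le _ hψ
  obtain ⟨-, -, g, hg⟩ := hψF
  have h5 : g * M.a * g⁻¹ = M.x ^ n := by
    have h6 := h2 ⟨M.a, haP⟩
    rw [hg] at h6
    exact h6.trans hma
  have hS : ∀ s ∈ M.S, g * s * g⁻¹ ∈ M.S := by
    intro s hs
    have h7 : ψ ⟨s, (le_sup_right : M.S ≤ P ⊔ M.S) hs⟩ ∈ (M.S.subgroupOf (P ⊔ M.S)).map ψ := ⟨_, hs, rfl⟩
    rw [h3, hg] at h7
    exact h7
  have h8 := x_comm_S M (hS _ (w_mem M (Pi.single 3 1)))
  have h9 : Commute (M.x ^ n) (g * M.w (Pi.single 3 1) * g⁻¹) := (show Commute M.x _ from h8).pow_left n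
  rw [← h5] at h9
  have h10 : M.a * M.w (Pi.single 3 1) = M.w (Pi.single 3 1) * M.a := by
    have h11 := h9.eq
    have e1 : g * M.a * g⁻¹ * (g * M.w (Pi.single 3 1) * g⁻¹) = g * (M.a * M.w (Pi.single 3 1)) * g⁻¹ := by group
    have e2 : g * M.w (Pi.single 3 1) * g⁻¹ * (g * M.a * g⁻¹) = g * (M.w (Pi.single 3 1) * M.a) * g⁻¹ := by group
    rw [e1, e2] at h11
    exact mul_left_cancel (mul_right_cancel h11)
  have h12 := M.a_w (Pi.single 3 1)
  rw [h10, mul_inv_cancel_right] at h12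
  exact absurd (w_inj M h12) (by decide +kernel)

/-- the core is trivial -/
theorem core_E : M.E.core = ⊥ := by
  unfold FusionSystem.core
  rw [eq_bot_iff]
  refine sSup_le fun Q hQ => ?_
  have h1 := Cfsg.Agent.H759.IsNormal.stronglyClosed hQ
  rcases stronglyClosed_E M h1 with h | h
  · exact h.le
  · exfalso
    subst h
    exact not_isNormal M hQ

end Cfsg.Agent.H96.M5X
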